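import Cfsg.Agent.S0040
import Cfsg.Agent.H44.Cores
import Cfsg.Agent.H82.Basic

/-! Normal subgroups `N` such that the order of elements is constant on cosets `xN ≠ N`. -/

namespace Cfsg.Agent.H94

open Subgroup

variable {G : Type*} [Group G] [Finite G]

theorem exists_two_primes {n : ℕ} (h1 : n ≠ 1) (h0 : n ≠ 0) (h : ¬ IsPrimePow n) (p : ℕ) :
    ∃ q, q.Prime ∧ q ∣ n ∧ q ≠ p := by
  by_contra hq
  push Not at hq
  obtain ⟨k, rfl⟩ := H82.eq_prime_pow_of_forall h0 hq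
  obtain ⟨q, hq1, hq2⟩ := Nat.exists_prime_and_dvd h1
  obtain rfl := hq q hq1 hq2
  exact h ((isPrimePow_nat_iff _).2 ⟨q, k, hq1, Nat.pos_of_ne_zero (by
    rintro rfl; exact h1 (pow_zero _)), rfl⟩)

theorem eqOrd_cyclic_or_quaternion {N : Subgroup G} [N.Normal]
    (heq : ∀ x : G, x ∉ N → ∀ n ∈ N, orderOf (x * n) = orderOf x) {s p : ℕ} [hs : Fact s.Prime]
    [hp : Fact p.Prime] (hsp : s ≠ p) (hsN : s ∣ Nat.card N) (hc : HasNormalPComplement s N)
    {P : Subgroup G} (hP : IsPGroup p P) :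
    IsCyclic (P.map (QuotientGroup.mk' N)) ∨
      (p = 2 ∧ ∃ n : ℕ, Nonempty (P.map (QuotientGroup.mk' N) ≃* QuaternionGroup (2 ^ n))) := by
  obtain ⟨Q, K, hK, hKQ⟩ := hc
  set M := (pPrimeCore s N).map N.subtype with hM
  haveI : M.Normal := H44.pPrimeCoreOf_normal N
  have hMN : M ≤ N := map_subtype_le _
  obtain ⟨a, ha⟩ := IsPGroup.iff_card.1 Q.isPGroup'
  have hKM : K ≤ pPrimeCore s N := H44.le_pPrimeCore hK (by
    rw [← hKQ.index_eq_card]; exact ((Nat.Prime.coprime_iff_not_dvd hs.out).2 Q.not_dvd_index).symm)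
  have hpow : ∀ n ∈ N, n ^ s ^ a ∈ M := fun n hn => ⟨⟨n, hn⟩ ^ s ^ a, hKM (by
    rw [← ha, ← hKQ.symm.index_eq_card]; exact K.pow_index_mem _), rfl⟩
  have hcop : ∀ k : ℕ, (p ^ k).Coprime (s ^ a) := fun k =>
    Nat.Coprime.pow _ _ ((Nat.coprime_primes hp.out hs.out).2 hsp.symm)
  have h1 := S0040.cyclic_or_quaternion (P := P.map (QuotientGroup.mk' M))
    (K := N.map (QuotientGroup.mk' M)) (fun h => by
      have h2 : N ≤ M := by
        rwa [Subgroup.map_eq_bot_iff, QuotientGroup.ker_mk'] at h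
      have h3 := H44.pPrimeCoreOf_coprime (p := s) N
      rw [← hM, le_antisymm hMN h2] at h3
      exact hs.out.one_lt.ne' (Nat.Coprime.eq_one_of_dvd h3.symm hsN))
    (by
      haveI := (‹N.Normal›).map _ (QuotientGroup.mk'_surjective M)
      rw [normalizer_eq_top]; exact le_top) (by
      rintro _ ⟨x, hx, rfl⟩ hx1
      obtain ⟨k, hk⟩ := H82.orderOf_eq_pow_of_mem hP hx
      have hxk : x ^ p ^ k = 1 := hk ▸ pow_orderOf_eq_one x
      have hxN : x ∉ N := fun h => hx1 ((QuotientGroup.eq_one_iff _).2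
        (H82.pow_mem_of_coprime (hcop k) (hxk ▸ M.one_mem) (hpow x h)))
      refine le_bot_iff.1 ?_
      rintro _ ⟨⟨n, hn, rfl⟩, hc⟩
      have hc' : Commute (QuotientGroup.mk' M x) (QuotientGroup.mk' M n) :=
        (mem_centralizer_singleton_iff.1 hc).symm
      have h2 : (x * n) ^ p ^ k = 1 := by rw [← hk, ← heq x hxN n hn, pow_orderOf_eq_one]
      have h3 := congrArg (QuotientGroup.mk' M) h2
      rw [map_pow, map_mul, hc'.mul_pow, ← map_pow, hxk, map_one, one_mul] at h3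
      exact H82.eq_one_of_pow_coprime (hcop k) h3 (by
        rw [← map_pow]; exact (QuotientGroup.eq_one_iff _).2 (hpow n hn))) (hP.map _)
  let f := QuotientGroup.map M N (MonoidHom.id G) hMN
  have e1 : (P.map (QuotientGroup.mk' M)).map f = P.map (QuotientGroup.mk' N) := by
    rw [map_map]; rfl
  have hi : Function.Injective (f.subgroupMap (P.map (QuotientGroup.mk' M))) :=
    (injective_iff_map_eq_one _).2 (by
      rintro ⟨_, x, hx, rfl⟩ h
      obtain ⟨k, hk⟩ := H82.orderOf_eq_pow_of_mem hP hx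
      have hxN : x ∈ N := (QuotientGroup.eq_one_iff _).1 (congrArg Subtype.val h)
      exact Subtype.ext ((QuotientGroup.eq_one_iff _).2 (H82.pow_mem_of_coprime (hcop k)
        (by rw [← hk, pow_orderOf_eq_one]; exact M.one_mem) (hpow x hxN))))
  let e := (MulEquiv.ofBijective _ ⟨hi, f.subgroupMap_surjective _⟩).trans
    (MulEquiv.subgroupCongr e1)
  exact h1.imp (fun h => e.isCyclic.1 h)
    fun ⟨h, n, ⟨e'⟩⟩ => ⟨h, n, ⟨e.symm.trans e'⟩⟩

omit [Finite G] in
theorem eqOrd_eq_one {N : Subgroup G}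
    (heq : ∀ x : G, x ∉ N → ∀ n ∈ N, orderOf (x * n) = orderOf x) {x n : G} (hx : x ∉ N)
    (hn : n ∈ N) (hc : Commute x n) (h : (orderOf x).Coprime (orderOf n)) (h0 : 0 < orderOf x) :
    n = 1 := by
  have := heq x hx n hn
  rw [hc.orderOf_mul_eq_mul_orderOf_of_coprime h] at this
  exact orderOf_eq_one_iff.1 ((Nat.mul_eq_left h0.ne').1 this)

end Cfsg.Agent.H94
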