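import Mathlib.GroupTheory.FreeGroup.NielsenSchreier
import Mathlib.GroupTheory.FreeGroup.Reduce
import Mathlib.GroupTheory.SemidirectProduct
import Mathlib.GroupTheory.Index
import Mathlib.Tactic.Group

/-!
The fundamental group of a graph with a group action, as a subgroup of `F(E) ⋊ H`: bounded
subgroups fix a vertex.
-/

namespace Cfsg.Agent.H94

open FreeGroup hiding map_mul map_one

universe u

variable {H E V : Type*} [Group H] [MulAction H E] [MulAction H V]

/-- The action on the free group. -/
def fact (H E : Type*) [Group H] [MulAction H E] : H →* MulAut (FreeGroup E) where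
  toFun h := freeGroupCongr (MulAction.toPerm h)
  map_one' := by
    ext x
    exact (map.unique (MonoidHom.id _) fun e => by simp).symm
  map_mul' a b := by
    ext x
    simp only [freeGroupCongr, MulEquiv.coe_mk, Equiv.coe_fn_mk, MulAut.mul_apply, map.comp]
    congr 2
    ext e
    simp [mul_smul]

/-- The action on words. -/
def lact (h : H) (L : List (E × Bool)) : List (E × Bool) := L.map fun x => (h • x.1, x.2)

theorem fact_mk (h : H) (L : List (E × Bool)) : fact H E h (mk L) = mk (lact h L) := map.mk

theorem isReduced_lact (h : H) {L : List (E × Bool)} (hL : FreeGroup.IsReduced L) :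
    FreeGroup.IsReduced (lact h L) := by
  rw [FreeGroup.IsReduced, lact, List.isChain_map]
  exact hL.imp fun a b hab e => hab (MulAction.injective h e)

theorem toWord_fact [DecidableEq E] (h : H) (w : FreeGroup E) :
    (fact H E h w).toWord = lact h w.toWord := by
  conv_lhs => rw [← mk_toWord (x := w), fact_mk, toWord_mk]
  exact (isReduced_lact h isReduced_toWord).reduce_eq

theorem norm_fact [DecidableEq E] (h : H) (w : FreeGroup E) : (fact H E h w).norm = w.norm := by
  simp only [FreeGroup.norm, toWord_fact, lact, List.length_map]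

/-- Paths in a graph: the letter `(e, b)` leads from `s (e, b)` to `s (e, !b)`. -/
def Path (s : E × Bool → V) : V → List (E × Bool) → V → Prop
  | v, [], v' => v = v'
  | v, x :: L, v' => s x = v ∧ Path s (s (x.1, !x.2)) L v'

variable {s : E × Bool → V}

theorem path_append {L₁ L₂ : List (E × Bool)} {v v'' : V} :
    Path s v (L₁ ++ L₂) v'' ↔ ∃ v', Path s v L₁ v' ∧ Path s v' L₂ v'' := by
  induction L₁ generalizing v with
  | nil => simp [Path]
  | cons x L ih => simp [Path, ih, and_assoc]

theorem Path.red {L L' : List (E × Bool)} (h : Red L L') {v v' : V} (hp : Path s v L v') :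
    Path s v L' v' := by
  induction h with
  | refl => exact hp
  | tail _ h ih =>
    cases h with
    | not =>
      obtain ⟨u, h1, h2, h3, h4⟩ := path_append.1 ih
      rw [Bool.not_not, h2] at h4
      exact path_append.2 ⟨u, h1, h4⟩

theorem Path.invRev {L : List (E × Bool)} {v v' : V} (hp : Path s v L v') :
    Path s v' (invRev L) v := by
  induction L generalizing v with
  | nil => exact hp.symm
  | cons x L ih =>
    rw [invRev_cons]
    exact path_append.2 ⟨_, ih hp.2, rfl, by simpa [Path] using hp.1⟩

theorem Path.unique {L : List (E × Bool)} {v v' v'' : V} (hp : Path s v L v')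
    (hp' : Path s v L v'') : v' = v'' := by
  induction L generalizing v with
  | nil => exact hp.symm.trans hp'
  | cons x L ih => exact ih hp.2 hp'.2

theorem Path.smul (hs : ∀ (h : H) e b, s (h • e, b) = h • s (e, b)) (h : H) {L : List (E × Bool)}
    {v v' : V} (hp : Path s v L v') : Path s (h • v) (lact h L) (h • v') := by
  induction L generalizing v with
  | nil => exact congrArg (h • ·) hp
  | cons x L ih => exact ⟨by rw [hs, hp.1], by rw [hs]; exact ih hp.2⟩

/-- The group of pairs `(w, h)` with `w` a path from `v` to `h v`. -/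
def graphGroup (hs : ∀ (h : H) e b, s (h • e, b) = h • s (e, b)) (v : V) :
    Subgroup (FreeGroup E ⋊[fact H E] H) where
  carrier := {g | ∃ L, mk L = g.left ∧ Path s v L (g.right • v)}
  one_mem' := ⟨[], rfl, (one_smul _ _).symm⟩
  mul_mem' := by
    rintro a b ⟨L, e, h⟩ ⟨L', e', h'⟩
    refine ⟨L ++ lact a.right L', ?_, path_append.2 ⟨_, h, ?_⟩⟩
    · rw [SemidirectProduct.mul_left, ← e, ← e', fact_mk, mul_mk]
    · rw [SemidirectProduct.mul_right, mul_smul]
      exact h'.smul hs _
  inv_mem' := by
    rintro a ⟨L, e, h⟩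
    refine ⟨lact a.right⁻¹ (invRev L), ?_, ?_⟩
    · rw [SemidirectProduct.inv_left, ← e, inv_mk, fact_mk]
    · have := h.invRev.smul hs a.right⁻¹
      rwa [inv_smul_smul] at this

variable {hs : ∀ (h : H) e b, s (h • e, b) = h • s (e, b)} {v : V}

theorem graphGroup.path [DecidableEq E] {g : FreeGroup E ⋊[fact H E] H} (hg : g ∈ graphGroup hs v) :
    Path s v g.left.toWord (g.right • v) := by
  obtain ⟨L, e, h⟩ := hg
  rw [← e, toWord_mk]
  exact h.red reduce.red

theorem inr_mem_graphGroup {h : H} :
    (SemidirectProduct.inr h : FreeGroup E ⋊[fact H E] H) ∈ graphGroup hs v ↔ h • v = v := by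
  classical
  exact ⟨fun hg => (graphGroup.path hg).symm, fun e => ⟨[], rfl, e.symm⟩⟩

theorem norm_inv_mul_of_ne [DecidableEq E] {w w' : FreeGroup E} {a b : E × Bool}
    {L M : List (E × Bool)} (h : w.toWord = a :: L) (h' : w'.toWord = b :: M) (hab : b ≠ a) :
    (w'⁻¹ * w).norm = w'.norm + w.norm := by
  have hr : FreeGroup.IsReduced (w'⁻¹.toWord ++ w.toWord) := by
    refine List.isChain_append.2 ⟨isReduced_toWord, isReduced_toWord, fun x hx y hy e => ?_⟩
    rw [toWord_inv, h', invRev_cons] at hx
    rw [h] at hy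
    simp only [invRev, List.map_cons, List.map_nil, List.reverse_cons, List.reverse_nil,
      List.nil_append, List.getLast?_append, List.getLast?_singleton, Option.some_or,
      Option.mem_def, Option.some.injEq, List.head?_cons] at hx hy
    subst hx hy
    by_contra h2
    exact hab (Prod.ext e (by revert h2; cases a.2 <;> cases b.2 <;> simp))
  rw [FreeGroup.norm, toWord_mul, hr.reduce_eq, List.length_append, ← norm_inv_eq (x := w')]
  rfl

theorem exists_conj_of_bounded [DecidableEq E] (htr : ∀ u : V, ∃ h : H, h • v = u) (D : ℕ)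
    (K : Subgroup (FreeGroup E ⋊[fact H E] H)) (hK : K ≤ graphGroup hs v)
    (hD : ∀ k ∈ K, k.left.norm ≤ D) :
    ∃ g ∈ graphGroup hs v, ∀ k ∈ K, (g * k * g⁻¹).left = 1 := by
  induction D generalizing K with
  | zero => exact ⟨1, one_mem _, fun k hk => by simpa using hD k hk⟩
  | succ D ih =>
    by_cases h0 : ∀ k ∈ K, k.left.norm ≤ D
    · exact ih K hK h0
    push Not at h0
    obtain ⟨k₀, hk₀, h0⟩ := h0
    obtain ⟨a, L, hL⟩ : ∃ a L, k₀.left.toWord = a :: L := by
      refine List.exists_cons_of_ne_nil fun e => ?_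
      rw [FreeGroup.norm, e] at h0
      exact Nat.not_lt_zero _ h0
    have hhead : ∀ k ∈ K, ∀ b M, k.left.toWord = b :: M → b = a := fun k hk b M hM => by
      by_contra hab
      have h1 := hD _ (K.mul_mem (K.inv_mem hk) hk₀)
      rw [SemidirectProduct.mul_left, SemidirectProduct.inv_left, SemidirectProduct.inv_right,
        ← map_mul, norm_fact, norm_inv_mul_of_ne hL hM hab] at h1
      have h2 : k.left.norm = M.length + 1 := by rw [FreeGroup.norm, hM, List.length_cons]
      omega
    obtain ⟨h, hh⟩ := htr (s (a.1, !a.2))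
    have hp := graphGroup.path (hK hk₀)
    rw [hL] at hp
    let g : FreeGroup E ⋊[fact H E] H := ⟨mk [a], h⟩
    have hg : g ∈ graphGroup hs v := ⟨[a], rfl, hp.1, hh.symm⟩
    obtain ⟨g', hg', H'⟩ := ih (K.map (MulAut.conj g⁻¹).toMonoidHom) (by
      rintro _ ⟨k, hk, rfl⟩
      exact mul_mem (mul_mem (inv_mem hg) (hK hk)) (inv_mem (inv_mem hg))) (by
      rintro _ ⟨k, hk, rfl⟩
      have e : ((MulAut.conj g⁻¹).toMonoidHom k).left =
          fact H E h⁻¹ ((mk [a])⁻¹ * k.left * mk [(k.right • a.1, a.2)]) := by
        show (g⁻¹ * k * g⁻¹⁻¹).left = _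
        rw [inv_inv, mul_assoc, SemidirectProduct.mul_left, SemidirectProduct.inv_left,
          SemidirectProduct.inv_right, ← map_mul, SemidirectProduct.mul_left, mul_assoc]
        rfl
      rw [e, norm_fact]
      rcases hM : k.left.toWord with _ | ⟨b, M⟩
      · rw [toWord_eq_nil_iff] at hM
        have h1 := hhead _ (K.mul_mem hk hk₀) (k.right • a.1, a.2) (lact k.right L) (by
          rw [SemidirectProduct.mul_left, hM, one_mul, toWord_fact, hL]; rfl)
        rw [hM, h1, mul_one, inv_mul_cancel, norm_one]
        exact Nat.zero_le _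
      · obtain rfl := hhead k hk b M hM
        have h2 : k.left.norm = M.length + 1 := by rw [FreeGroup.norm, hM, List.length_cons]
        have h3 := hD k hk
        have h4 : k⁻¹.left.toWord = lact k.right⁻¹ (invRev (b :: M)) := by
          rw [SemidirectProduct.inv_left, toWord_fact, toWord_inv, hM]
        rcases M.eq_nil_or_concat with rfl | ⟨M', c, rfl⟩
        · have := congrArg Prod.snd (hhead _ (K.inv_mem hk) _ _ h4)
          simp at this
        · rw [List.concat_eq_append, ← List.cons_append, invRev_append] at h4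
          have h5 := hhead _ (K.inv_mem hk) _ _ h4
          have h6 : mk [c] * mk [(k.right • b.1, b.2)] = 1 := by
            rw [← h5, smul_inv_smul, mul_eq_one_iff_inv_eq, inv_mk]
            rfl
          have h7 : k.left = mk [b] * mk M' * mk [c] := by
            rw [mul_mk, mul_mk, ← mk_toWord (x := k.left), hM, List.concat_eq_append]
            rfl
          rw [h7, mul_assoc (mk [b]), inv_mul_cancel_left, mul_assoc, h6, mul_one]
          refine norm_mk_le.trans ?_
          rw [List.length_concat] at h2
          omega)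
    refine ⟨g' * g⁻¹, mul_mem hg' (inv_mem hg), fun k hk => ?_⟩
    have := H' _ ⟨k, hk, rfl⟩
    rwa [show g' * (MulAut.conj g⁻¹).toMonoidHom k * g'⁻¹ = g' * g⁻¹ * k * (g' * g⁻¹)⁻¹ by
      show g' * (g⁻¹ * k * g⁻¹⁻¹) * g'⁻¹ = _
      group] at this

theorem exists_conj_of_finite (htr : ∀ u : V, ∃ h : H, h • v = u)
    (K : Subgroup (graphGroup hs v)) [Finite K] :
    ∃ g : graphGroup hs v, ∀ k ∈ K, ∃ h : H, h • v = v ∧
      (↑(g * k * g⁻¹) : FreeGroup E ⋊[fact H E] H) = SemidirectProduct.inr h := by
  classical
  obtain ⟨D, hD⟩ := (Set.finite_range fun k : K => (k.1.1.left.norm)).bddAbove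
  obtain ⟨g, hg, h⟩ := exists_conj_of_bounded (hs := hs) htr D (K.map (Subgroup.subtype _))
    (Subgroup.map_subtype_le _) (by
      rintro _ ⟨k, hk, rfl⟩
      exact hD ⟨⟨k, hk⟩, rfl⟩)
  refine ⟨⟨g, hg⟩, fun k hk => ?_⟩
  have e : g * k.1 * g⁻¹ = SemidirectProduct.inr (g * k.1 * g⁻¹).right :=
    SemidirectProduct.ext (h _ ⟨k, hk, rfl⟩) rfl
  exact ⟨_, inr_mem_graphGroup.1 (e ▸ mul_mem (mul_mem hg k.2) (inv_mem hg)), e⟩

theorem exists_free_normal {H E V : Type u} [Group H] [MulAction H E] [MulAction H V]
    {s : E × Bool → V} (hs : ∀ (h : H) e b, s (h • e, b) = h • s (e, b)) (v : V) :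
    ∃ N : Subgroup (graphGroup hs v), N.Normal ∧ IsFreeGroup N ∧ N.index ∣ Nat.card H := by
  let π : graphGroup hs v →* H := SemidirectProduct.rightHom.comp (Subgroup.subtype _)
  refine ⟨π.ker, inferInstance, ?_, ?_⟩
  · let f : π.ker →* FreeGroup E :=
      { toFun := fun x => x.1.1.left
        map_one' := rfl
        map_mul' := fun x y => by
          have : x.1.1.right = 1 := x.2
          show (x.1.1 * y.1.1).left = _
          rw [SemidirectProduct.mul_left, this, map_one]
          rfl }
    have hf : Function.Injective f := fun x y e =>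
      Subtype.ext (Subtype.ext (SemidirectProduct.ext e ((x.2 : π _ = 1).trans (y.2 : π _ = 1).symm)))
    exact IsFreeGroup.ofMulEquiv (MonoidHom.ofInjective hf).symm
  · rw [Subgroup.index_ker]
    exact Subgroup.card_subgroup_dvd_card _

end Cfsg.Agent.H94
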